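import Cfsg.Agent.H838.KW.TwoDef
import Cfsg.Agent.H322.Cent.Uni
import Cfsg.Agent.H960.Card81
import Cfsg.Agent.S0261

/-!
# S4243, row K3 (PSU): `GU_2(q)` (helper567)

`twoGp_gu` : `TwoGp r q (GU 2 F q)` for `q > 3` odd.
-/

set_option autoImplicit false

namespace Cfsg.Agent.H567.KW

open Matrix Cfsg
open Cfsg.Agent.H838.KW

variable {F : Type} [Field F] [Fintype F] {q : ℕ}

theorem exists_pow {r : ℕ} [Fact r.Prime] [CharP F r] (hF : Fintype.card F = q ^ 2) : ∃ k : ℕ, q = r ^ k := by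
  obtain ⟨n, -, hn⟩ := FiniteField.card F r
  have h1 : q ∣ r ^ (n : ℕ) := by
    rw [← hn, hF]
    exact dvd_pow_self q (by norm_num)
  obtain ⟨k, -, hk⟩ := (Nat.dvd_prime_pow (Fact.out : r.Prime)).1 h1
  exact ⟨k, hk⟩

theorem odd_q {r : ℕ} [Fact r.Prime] [CharP F r] (hr : r ≠ 2) (hF : Fintype.card F = q ^ 2) : Odd q := by
  obtain ⟨k, rfl⟩ := exists_pow (r := r) hF
  exact ((Fact.out : r.Prime).odd_of_ne_two hr).pow

theorem quat_not_comm {n : ℕ} (hn : 2 ≤ n) : ∃ x y : QuaternionGroup n, x * y ≠ y * x := by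
  refine ⟨QuaternionGroup.a 1, QuaternionGroup.xa 0, fun h => ?_⟩
  rw [QuaternionGroup.a_mul_xa, QuaternionGroup.xa_mul_a] at h
  have h1 : (0 : ZMod (2 * n)) - 1 = 0 + 1 := by simpa using h
  have h2 : (2 : ZMod (2 * n)) = 0 := by linear_combination -h1
  have h3 : ((2 : ℕ) : ZMod (2 * n)) = 0 := by exact_mod_cast h2
  rw [ZMod.natCast_eq_zero_iff] at h3
  have h4 := Nat.le_of_dvd (by norm_num) h3
  omega

/-- the embedding of `SU_2(q)` -/
def suSl : SU 2 F q →* slPart (GU 2 F q) :=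
  (Matrix.SpecialLinearGroup.toGL.comp (SU 2 F q).subtype).codRestrict (slPart (GU 2 F q)) fun x =>
    ⟨x.2, MonoidHom.mem_ker.2 (Units.ext (x : Matrix.SpecialLinearGroup (Fin 2) F).2)⟩

omit [Fintype F] in
theorem suSl_injective : Function.Injective (suSl (F := F) (q := q)) := by
  intro a b h
  apply Subtype.ext
  apply Subtype.ext
  exact congrArg (fun x : slPart (GU 2 F q) => ((x : Matrix.GeneralLinearGroup (Fin 2) F) : Matrix (Fin 2) (Fin 2) F)) h

theorem twoGp_gu {r : ℕ} [Fact r.Prime] [CharP F r] (hr : r ≠ 2) (hF : Fintype.card F = q ^ 2) (hq : 3 < q) :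
    TwoGp r q (GU 2 F q) where
  lt := hq
  pow := exists_pow hF
  neg := by
    have hodd := odd_q (r := r) hr hF
    intro u v
    have h1 : ∀ w : Fin 2 → F, (Units.coeHom (Matrix (Fin 2) (Fin 2) F) (-1)) *ᵥ w = -w := by
      intro w
      simp [Matrix.neg_mulVec]
    rw [h1, h1]
    unfold hermForm
    refine Finset.sum_congr rfl fun i _ => ?_
    rw [Pi.neg_apply, Pi.neg_apply, hodd.neg_pow]
    ring
  card := by
    have h1 := H960.card_su_eq (F := F) (n := 2) (q := q)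
    rw [H322.Cent.card_su_two hF] at h1
    exact h1
  nonab := by
    obtain ⟨K, iK, iK', hK, ⟨e⟩⟩ := H322.Cent.su_two hF
    have : Fact (Nat.Prime 2) := ⟨Nat.prime_two⟩
    obtain ⟨P⟩ : Nonempty (Sylow 2 (SpecialLinearGroup (Fin 2) K)) := inferInstance
    obtain ⟨k, hk, ⟨φ⟩⟩ := S0261.result (F := K) (hK ▸ odd_q (r := r) hr hF) P
    obtain ⟨x, y, hxy⟩ := quat_not_comm (n := 2 ^ k) (by
      calc 2 = 2 ^ 1 := rfl
        _ ≤ 2 ^ k := Nat.pow_le_pow_right (by norm_num) hk)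
    let ψ : SpecialLinearGroup (Fin 2) K →* Matrix.GeneralLinearGroup (Fin 2) F :=
      (slPart (GU 2 F q)).subtype.comp (suSl.comp e.symm.toMonoidHom)
    have hψ : Function.Injective ψ :=
      (Subgroup.subtype_injective _).comp (suSl_injective.comp e.symm.injective)
    refine ⟨(P : Subgroup (SpecialLinearGroup (Fin 2) K)).map ψ, ?_, P.isPGroup'.map ψ, ψ (φ.symm x), ⟨_, (φ.symm x).2, rfl⟩,
      ψ (φ.symm y), ⟨_, (φ.symm y).2, rfl⟩, ?_⟩
    · rintro _ ⟨z, -, rfl⟩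
      exact (suSl (e.symm z)).2
    · intro h
      rw [← map_mul, ← map_mul] at h
      have h1 := hψ h
      apply hxy
      apply φ.symm.injective
      apply Subtype.ext
      rw [map_mul, map_mul]
      exact h1

end Cfsg.Agent.H567.KW
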